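import Mathlib
import Cfsg.Agent.H584.Sect
import Cfsg.Agent.Lib.FrattiniBasic
import Cfsg.Agent.Transfer.TausskyTwoGroup

/-!
# Subgroups with centre of order 2 in 2-groups of sectional rank at most 4

* `CenGen P z`: the centre of `P` is `{1, z}`, `z ≠ 1`.
* `exists_quot_four`: a nonabelian 2-group `P` has a subgroup `A` containing the centre with `P / A` elementary abelian
  of order at least 4.
* `pair`: nonabelian `P`, `Q ≤ T` normalized by `T`, with different centres of order 2: they commute, meet trivially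
  and (for sectional rank at most 4) `C_T(PQ) ≤ PQ`.
-/

set_option autoImplicit false

namespace Cfsg.Agent.H584.Pair

open Subgroup Cfsg Cfsg.Agent.TwoFusion.SectionalRank

universe u

variable {S : Type u} [Group S]

/-- `z` generates the centre of `P`, which has order 2. -/
structure CenGen (P : Subgroup S) (z : S) : Prop where
  mem : z ∈ P
  ne : z ≠ 1
  sq : z * z = 1
  comm : ∀ x ∈ P, x * z = z * x
  uniq : ∀ x ∈ P, (∀ y ∈ P, y * x = x * y) → x = 1 ∨ x = z

theorem exists_gen {P : Subgroup S} (h : Nat.card (center P) = 2) :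
    ∃ z, CenGen P z ∧ (center P).map P.subtype = zpowers z := by
  have : Fact (Nat.Prime 2) := ⟨Nat.prime_two⟩
  have : Finite (center P) := Nat.finite_of_card_ne_zero (by omega)
  obtain ⟨z, hz⟩ := exists_prime_orderOf_dvd_card' (G := center P) 2 (by rw [h])
  have hz1 : z ≠ 1 := by
    rintro rfl
    rw [orderOf_one] at hz
    omega
  have htop : zpowers z = ⊤ := by
    apply Subgroup.eq_top_of_card_eq
    rw [Nat.card_zpowers, hz, h]
  refine ⟨((z : P) : S), ⟨(z : P).2, ?_, ?_, ?_, ?_⟩, ?_⟩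
  · intro h1
    exact hz1 (Subtype.ext (Subtype.ext h1))
  · have h1 : z * z = 1 := by rw [← pow_two, ← hz, pow_orderOf_eq_one]
    have h2 := congrArg (fun w : center P => ((w : P) : S)) h1
    exact h2
  · intro x hx
    have h1 := mem_center_iff.1 z.2 ⟨x, hx⟩
    exact congrArg Subtype.val h1
  · intro x hx hc
    have hxc : (⟨x, hx⟩ : P) ∈ center P := by
      rw [mem_center_iff]
      intro g
      exact Subtype.ext (hc g g.2)
    have h1 : (⟨⟨x, hx⟩, hxc⟩ : center P) ∈ zpowers z := by rw [htop]; trivial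
    obtain ⟨k, hk⟩ := Subgroup.mem_zpowers_iff.1 h1
    have hzz : z ^ (2 : ℤ) = 1 := by
      rw [zpow_ofNat, ← hz, pow_orderOf_eq_one]
    rcases Int.even_or_odd' k with ⟨l, rfl | rfl⟩
    · left
      rw [zpow_mul, hzz, one_zpow] at hk
      have := congrArg (fun w : center P => ((w : P) : S)) hk
      exact this.symm
    · right
      rw [zpow_add, zpow_mul, hzz, one_zpow, one_mul, zpow_one] at hk
      have := congrArg (fun w : center P => ((w : P) : S)) hk
      exact this.symm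
  · have h1 : (⊤ : Subgroup (center P)).map ((P.subtype).comp (center P).subtype) =
        (center P).map P.subtype := by
      rw [← Subgroup.map_map, ← MonoidHom.range_eq_map, Subgroup.range_subtype]
    rw [← h1, ← htop, MonoidHom.map_zpowers]
    rfl

/-- A nonabelian 2-group has an elementary abelian quotient of order at least 4 whose kernel contains the centre. -/
theorem exists_quot_four_aux {P : Type u} [Group P] [Finite P] (h2 : IsPGroup 2 P)
    (hna : ∃ a b : P, a * b ≠ b * a) :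
    ∃ A : Subgroup P, center P ≤ A ∧ ElemSection 2 ⊤ A ∧ 4 * Nat.card A ≤ Nat.card P := by
  have : Fact (Nat.Prime 2) := ⟨Nat.prime_two⟩
  have hc : center P ≠ ⊤ := by
    intro h
    obtain ⟨a, b, hab⟩ := hna
    have : b ∈ center P := by rw [h]; trivial
    exact hab (mem_center_iff.1 this a)
  obtain ⟨M1, hM1, hcM1⟩ := (eq_top_or_exists_le_coatom (center P)).resolve_left hc
  obtain ⟨x, hx⟩ : ∃ x, x ∉ M1 := by
    by_contra hcon
    push Not at hcon
    exact hM1.1 (eq_top_iff.2 fun x _ => hcon x)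
  have hL : center P ⊔ zpowers x ≠ ⊤ := by
    intro h
    obtain ⟨a, b, hab⟩ := hna
    have ha : a ∈ center P ⊔ zpowers x := by rw [h]; trivial
    have hb : b ∈ center P ⊔ zpowers x := by rw [h]; trivial
    rw [mem_sup_of_normal_left] at ha hb
    obtain ⟨c, hc', k, hk, rfl⟩ := ha
    obtain ⟨d, hd, l, hl, rfl⟩ := hb
    obtain ⟨i, rfl⟩ := Subgroup.mem_zpowers_iff.1 hk
    obtain ⟨j, rfl⟩ := Subgroup.mem_zpowers_iff.1 hl
    apply hab
    have e1 : Commute c (d * x ^ j) := (mem_center_iff.1 hc' _).symm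
    have e2 : Commute (x ^ i) (d * x ^ j) :=
      (show Commute (x ^ i) d from mem_center_iff.1 hd _).mul_right ((Commute.refl x).zpow_zpow i j)
    exact (e1.mul_left e2).eq
  obtain ⟨M2, hM2, hLM2⟩ := (eq_top_or_exists_le_coatom (center P ⊔ zpowers x)).resolve_left hL
  refine ⟨M1 ⊓ M2, le_inf hcM1 (le_sup_left.trans hLM2), ⟨le_top, ?_, ?_⟩, ?_⟩
  · intro a _ b _
    have h1 : a * b * a⁻¹ * b⁻¹ ∈ commutator P := by
      have := commutator_mem_commutator (H₁ := (⊤ : Subgroup P)) (H₂ := ⊤) (mem_top a) (mem_top b)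
      exact this
    exact ⟨Cfsg.Agent.Lib.FrattiniBasic.commutator_le_of_isCoatom h2 hM1 h1,
      Cfsg.Agent.Lib.FrattiniBasic.commutator_le_of_isCoatom h2 hM2 h1⟩
  · intro a _
    exact ⟨Cfsg.Agent.Lib.FrattiniBasic.pow_mem_of_isCoatom h2 hM1 a,
      Cfsg.Agent.Lib.FrattiniBasic.pow_mem_of_isCoatom h2 hM2 a⟩
  · have hx2 : x ∈ M2 := hLM2 ((le_sup_right : zpowers x ≤ _) (mem_zpowers x))
    have h3 : M1 ⊓ M2 < M2 := by
      refine lt_of_le_of_ne inf_le_right ?_
      intro h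
      rw [← h] at hx2
      exact hx hx2.1
    have h4 : M2 < ⊤ := hM2.lt_top
    have h5 := Sect.two_mul_card_le h3
    have h6 := Sect.two_mul_card_le h4
    rw [card_top] at h6
    omega

theorem exists_quot_four [Finite S] (h2 : IsPGroup 2 S) {P : Subgroup S} {z : S} (hz : CenGen P z)
    (hna : ∃ a ∈ P, ∃ b ∈ P, a * b ≠ b * a) :
    ∃ A : Subgroup S, z ∈ A ∧ ElemSection 2 P A ∧ 4 * Nat.card A ≤ Nat.card P := by
  obtain ⟨a, ha, b, hb, hab⟩ := hna
  obtain ⟨A, h3, h4, h5⟩ := exists_quot_four_aux (h2.to_subgroup P)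
    ⟨⟨a, ha⟩, ⟨b, hb⟩, fun h => hab (congrArg Subtype.val h)⟩
  refine ⟨A.map P.subtype, ⟨⟨z, hz.mem⟩, h3 ?_, rfl⟩, ?_, ?_⟩
  · rw [mem_center_iff]
    intro g
    exact Subtype.ext (hz.comm g g.2)
  · have h6 := h4.map P.subtype
    rwa [← MonoidHom.range_eq_map, Subgroup.range_subtype] at h6
  · rwa [card_map_of_injective P.subtype_injective]

/-- Two commuting subgroups `P`, `Q`: the order of `P ⊔ Q`. -/
theorem card_sup_le [Finite S] {P Q : Subgroup S} (h : ∀ p ∈ P, ∀ q ∈ Q, p * q = q * p) :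
    Nat.card (P ⊔ Q : Subgroup S) ≤ Nat.card P * Nat.card Q := by
  have hc : ∀ (m : P) (n : Q), Commute (P.subtype m) (Q.subtype n) := fun m n => h m m.2 n n.2
  have h1 := MonoidHom.noncommCoprod_range P.subtype Q.subtype hc
  rw [Subgroup.range_subtype, Subgroup.range_subtype] at h1
  rw [← h1, ← Nat.card_prod]
  exact Nat.card_le_card_of_surjective _ (MonoidHom.rangeRestrict_surjective _)

theorem card_sup_eq {P Q : Subgroup S} (h : ∀ p ∈ P, ∀ q ∈ Q, p * q = q * p) (hd : P ⊓ Q = ⊥) :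
    Nat.card (P ⊔ Q : Subgroup S) = Nat.card P * Nat.card Q := by
  have hc : ∀ (m : P) (n : Q), Commute (P.subtype m) (Q.subtype n) := fun m n => h m m.2 n n.2
  have h1 := MonoidHom.noncommCoprod_range P.subtype Q.subtype hc
  rw [Subgroup.range_subtype, Subgroup.range_subtype] at h1
  have h2 : Function.Injective (MonoidHom.noncommCoprod P.subtype Q.subtype hc) := by
    rw [MonoidHom.noncommCoprod_injective]
    refine ⟨P.subtype_injective, Q.subtype_injective, ?_⟩
    rw [Subgroup.range_subtype, Subgroup.range_subtype, disjoint_iff]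
    exact hd
  rw [← h1, ← Nat.card_prod]
  exact (Nat.card_congr (MonoidHom.ofInjective h2).toEquiv).symm

theorem mem_sup_of_comm {P Q : Subgroup S} (h : ∀ p ∈ P, ∀ q ∈ Q, p * q = q * p) {x : S}
    (hx : x ∈ P ⊔ Q) : ∃ p ∈ P, ∃ q ∈ Q, x = p * q := by
  have hc : ∀ (m : P) (n : Q), Commute (P.subtype m) (Q.subtype n) := fun m n => h m m.2 n n.2
  have h1 := MonoidHom.noncommCoprod_range P.subtype Q.subtype hc
  rw [Subgroup.range_subtype, Subgroup.range_subtype] at h1
  rw [← h1] at hx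
  obtain ⟨⟨p, q⟩, rfl⟩ := hx
  exact ⟨p, p.2, q, q.2, rfl⟩

/-- Sections of two commuting subgroups. -/
theorem elemSection_prod {P Q A B : Subgroup S} (h : ∀ p ∈ P, ∀ q ∈ Q, p * q = q * p)
    (hA : ElemSection 2 P A) (hB : ElemSection 2 Q B) : ElemSection 2 (P ⊔ Q) (A ⊔ B) := by
  refine ⟨sup_le_sup hA.le hB.le, ?_, ?_⟩
  · intro x hx y hy
    obtain ⟨p, hp, q, hq, rfl⟩ := mem_sup_of_comm h hx
    obtain ⟨p', hp', q', hq', rfl⟩ := mem_sup_of_comm h hy
    have e : p * q * (p' * q') * (p * q)⁻¹ * (p' * q')⁻¹ = (p * p' * p⁻¹ * p'⁻¹) * (q * q' * q⁻¹ * q'⁻¹) := by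
      have c1 : q * p' = p' * q := (h p' hp' q hq).symm
      have c2 : q' * q⁻¹ * p⁻¹ = p⁻¹ * (q' * q⁻¹) :=
        (h _ (inv_mem hp) _ (mul_mem hq' (inv_mem hq))).symm
      have c3 : (q * q' * q⁻¹ * q'⁻¹) * p'⁻¹ = p'⁻¹ * (q * q' * q⁻¹ * q'⁻¹) :=
        (h _ (inv_mem hp') _ (mul_mem (mul_mem (mul_mem hq hq') (inv_mem hq)) (inv_mem hq'))).symm
      have c4 : q * p⁻¹ = p⁻¹ * q := (h _ (inv_mem hp) _ hq).symm
      calc p * q * (p' * q') * (p * q)⁻¹ * (p' * q')⁻¹
          = p * (q * p') * (q' * q⁻¹ * p⁻¹) * q'⁻¹ * p'⁻¹ := by group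
        _ = p * (p' * q) * (p⁻¹ * (q' * q⁻¹)) * q'⁻¹ * p'⁻¹ := by rw [c1, c2]
        _ = p * p' * (q * p⁻¹) * (q' * q⁻¹ * q'⁻¹) * p'⁻¹ := by group
        _ = p * p' * (p⁻¹ * q) * (q' * q⁻¹ * q'⁻¹) * p'⁻¹ := by rw [c4]
        _ = p * p' * p⁻¹ * ((q * q' * q⁻¹ * q'⁻¹) * p'⁻¹) := by group
        _ = p * p' * p⁻¹ * (p'⁻¹ * (q * q' * q⁻¹ * q'⁻¹)) := by rw [c3]
        _ = (p * p' * p⁻¹ * p'⁻¹) * (q * q' * q⁻¹ * q'⁻¹) := by group
    rw [e]
    exact mul_mem (mem_sup_left (hA.comm p hp p' hp')) (mem_sup_right (hB.comm q hq q' hq'))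
  · intro x hx
    obtain ⟨p, hp, q, hq, rfl⟩ := mem_sup_of_comm h hx
    rw [(show Commute p q from h p hp q hq).mul_pow]
    exact mul_mem (mem_sup_left (hA.pow p hp)) (mem_sup_right (hB.pow q hq))

section pair

variable [Finite S] (h2 : IsPGroup 2 S) {T P Q : Subgroup S} {z w : S}

omit [Finite S] in
/-- An element normalizing `P` centralizes `z`. -/
theorem CenGen.comm_of_normalizes (hz : CenGen P z) {t : S} (ht : ∀ x ∈ P, t * x * t⁻¹ ∈ P)
    (ht' : ∀ x ∈ P, t⁻¹ * x * t ∈ P) : t * z = z * t := by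
  have h1 : t * z * t⁻¹ = 1 ∨ t * z * t⁻¹ = z := by
    apply hz.uniq _ (ht z hz.mem)
    intro y hy
    have h3 := hz.comm _ (ht' y hy)
    calc y * (t * z * t⁻¹) = t * (t⁻¹ * y * t * z) * t⁻¹ := by group
      _ = t * (z * (t⁻¹ * y * t)) * t⁻¹ := by rw [h3]
      _ = t * z * t⁻¹ * y := by group
  rcases h1 with h1 | h1
  · exfalso
    apply hz.ne
    calc z = t⁻¹ * (t * z * t⁻¹) * t := by group
      _ = 1 := by rw [h1]; group
  · exact mul_inv_eq_iff_eq_mul.1 h1

include h2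

theorem inf_eq_bot (hz : CenGen P z) (hw : CenGen Q w) (hzw : z ≠ w)
    (hPT : P ≤ T) (hQT : Q ≤ T) (hP : ∀ t ∈ T, ∀ x ∈ P, t * x * t⁻¹ ∈ P)
    (hQ : ∀ t ∈ T, ∀ x ∈ Q, t * x * t⁻¹ ∈ Q) : P ⊓ Q = ⊥ := by
  have : Fact (Nat.Prime 2) := ⟨Nat.prime_two⟩
  have hzQ : z ∉ Q := by
    intro hzQ
    have hcy : ∀ y ∈ Q, y * z = z * y := by
      intro y hy
      refine hz.comm_of_normalizes (hP y (hQT hy)) ?_
      have := hP y⁻¹ (inv_mem (hQT hy))
      simpa using this
    rcases hw.uniq z hzQ hcy with h | h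
    · exact hz.ne h
    · exact hzw h
  by_contra hne
  have hnorm : (Q.subgroupOf P).Normal := by
    constructor
    intro n hn g
    rw [mem_subgroupOf] at hn ⊢
    exact hQ g (hPT g.2) n hn
  have hne' : Q.subgroupOf P ≠ ⊥ := by
    rw [Ne, subgroupOf_eq_bot, disjoint_iff, inf_comm]
    exact hne
  obtain ⟨x, hx, hxc, hx1⟩ := Cfsg.Agent.Transfer.TausskyTwoGroup.exists_ne_one_mem_inf_center
    (p := 2) (h2.to_subgroup P) (Q.subgroupOf P) hne'
  have hcy : ∀ y ∈ P, y * (x : S) = x * y := by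
    intro y hy
    exact congrArg Subtype.val (mem_center_iff.1 hxc ⟨y, hy⟩)
  rcases hz.uniq x x.2 hcy with h | h
  · exact hx1 (Subtype.ext h)
  · apply hzQ
    rw [← h]
    exact hx

theorem commute_pair (hz : CenGen P z) (hw : CenGen Q w) (hzw : z ≠ w)
    (hPT : P ≤ T) (hQT : Q ≤ T) (hP : ∀ t ∈ T, ∀ x ∈ P, t * x * t⁻¹ ∈ P)
    (hQ : ∀ t ∈ T, ∀ x ∈ Q, t * x * t⁻¹ ∈ Q) : ∀ p ∈ P, ∀ q ∈ Q, p * q = q * p := by
  intro p hp q hq
  have h1 : p * q * p⁻¹ * q⁻¹ ∈ P ⊓ Q := by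
    constructor
    · have h3 : p * (q * p⁻¹ * q⁻¹) ∈ P := P.mul_mem hp (hP q (hQT hq) _ (P.inv_mem hp))
      have h4 : p * (q * p⁻¹ * q⁻¹) = p * q * p⁻¹ * q⁻¹ := by group
      rw [← h4]
      exact h3
    · exact Q.mul_mem (hQ p (hPT hp) q hq) (Q.inv_mem hq)
  rw [inf_eq_bot h2 hz hw hzw hPT hQT hP hQ, mem_bot] at h1
  calc p * q = (p * q * p⁻¹ * q⁻¹) * (q * p) := by group
    _ = q * p := by rw [h1, one_mul]

theorem centralizer_pair (hr : SectionalPRankLE 2 4 S) (hz : CenGen P z) (hw : CenGen Q w) (hzw : z ≠ w)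
    (hPT : P ≤ T) (hQT : Q ≤ T) (hP : ∀ t ∈ T, ∀ x ∈ P, t * x * t⁻¹ ∈ P)
    (hQ : ∀ t ∈ T, ∀ x ∈ Q, t * x * t⁻¹ ∈ Q)
    (hPna : ∃ a ∈ P, ∃ b ∈ P, a * b ≠ b * a) (hQna : ∃ a ∈ Q, ∃ b ∈ Q, a * b ≠ b * a)
    {x : S} (hxP : ∀ p ∈ P, x * p = p * x) (hxQ : ∀ q ∈ Q, x * q = q * x) : x ∈ P ⊔ Q := by
  have hcomm := commute_pair h2 hz hw hzw hPT hQT hP hQ
  have hinf := inf_eq_bot h2 hz hw hzw hPT hQT hP hQ
  by_contra hx
  obtain ⟨j, hj1, hj2⟩ := Sect.exists_sq_mem h2 _ x hx
  set y := x ^ (2 ^ j) with hy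
  have hyP : ∀ p ∈ P, y * p = p * y := fun p hp => (show Commute x p from hxP p hp).pow_left _
  have hyQ : ∀ q ∈ Q, y * q = q * y := fun q hq => (show Commute x q from hxQ q hq).pow_left _
  obtain ⟨A, hzA, hA, hAc⟩ := exists_quot_four h2 hz hPna
  obtain ⟨B, hwB, hB, hBc⟩ := exists_quot_four h2 hw hQna
  have hsec := elemSection_prod hcomm hA hB
  have hyy : y * y ∈ A ⊔ B := by
    rw [pow_two] at hj2
    obtain ⟨p, hp, q, hq, hpq⟩ := mem_sup_of_comm hcomm hj2
    have hpc : p = 1 ∨ p = z := by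
      apply hz.uniq p hp
      intro v hv
      have h3 : y * y * v = v * (y * y) := by
        rw [mul_assoc, hyP v hv, ← mul_assoc, hyP v hv, mul_assoc]
      rw [hpq] at h3
      have h4 : q * v = v * q := (hcomm v hv q hq).symm
      have h5 : p * v * q = v * p * q := by
        calc p * v * q = p * (v * q) := by group
          _ = p * (q * v) := by rw [h4]
          _ = p * q * v := by group
          _ = v * (p * q) := h3
          _ = v * p * q := by group
      exact (mul_right_cancel h5).symm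
    have hqc : q = 1 ∨ q = w := by
      apply hw.uniq q hq
      intro v hv
      have h3 : y * y * v = v * (y * y) := by
        rw [mul_assoc, hyQ v hv, ← mul_assoc, hyQ v hv, mul_assoc]
      rw [hpq] at h3
      have h4 : p * v = v * p := hcomm p hp v hv
      have h5 : p * (q * v) = p * (v * q) := by
        calc p * (q * v) = p * q * v := by group
          _ = v * (p * q) := h3
          _ = v * p * q := by group
          _ = p * v * q := by rw [h4]
          _ = p * (v * q) := by group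
      exact (mul_left_cancel h5).symm
    rw [hpq]
    refine mul_mem ?_ ?_
    · rcases hpc with rfl | rfl
      · exact one_mem _
      · exact mem_sup_left hzA
    · rcases hqc with rfl | rfl
      · exact one_mem _
      · exact mem_sup_right hwB
  have h1 := Sect.card_le_of_section hr hsec y ?_ hyy hj1
  · rw [card_sup_eq hcomm hinf] at h1
    have h3 := card_sup_le (P := A) (Q := B) (fun p hp q hq => hcomm p (hA.le hp) q (hB.le hq))
    have hpos : 0 < Nat.card P * Nat.card Q := Nat.mul_pos Nat.card_pos Nat.card_pos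
    have h4 : (4 * Nat.card A) * (4 * Nat.card B) ≤ Nat.card P * Nat.card Q := Nat.mul_le_mul hAc hBc
    have h5 : 2 ^ 4 * Nat.card (A ⊔ B : Subgroup S) ≤ 2 ^ 4 * (Nat.card A * Nat.card B) :=
      Nat.mul_le_mul_left _ h3
    have h6 : 2 ^ 4 * (Nat.card A * Nat.card B) = (4 * Nat.card A) * (4 * Nat.card B) := by ring
    omega
  · intro m hm
    obtain ⟨p, hp, q, hq, rfl⟩ := mem_sup_of_comm hcomm hm
    have h3 : y * (p * q) = p * q * y := by
      rw [← mul_assoc, hyP p hp, mul_assoc, hyQ q hq, mul_assoc]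
    rw [h3]
    have h4 : p * q * y * y⁻¹ * (p * q)⁻¹ = 1 := by group
    rw [h4]
    exact one_mem _

end pair

end Cfsg.Agent.H584.Pair
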