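import Cfsg.Agent.H584.TwoNum

/-!
# Two indices: the search for the orders of some sporadic groups (generated)
-/

set_option autoImplicit false
set_option Elab.async false

namespace Cfsg.Agent.H584.TwoNum

theorem fi23_check1 : allDiv (check1 [3, 5, 7, 11, 13, 17, 23] 5214084628724503356405564600975359 20282409603651670423947259674624
    [4096, 8707129344]) [(2, 18), (3, 13), (5, 2), (7, 1), (11, 1), (13, 1), (17, 1), (23, 1)] 1 = true := by
  decide +kernel

theorem fi23_check2 : check2 7 5214084628724503356405564600975359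
    20282409603651670423947259674624 = true := by
  decide +kernel

theorem fi23_check3 : check3 [3, 5, 7, 11, 13, 17, 23] [4096, 8707129344] [31671] = true := by
  decide +kernel

theorem fi23 {n₁ n₂ : ℕ} (hn₁ : n₁ ∣ 4089470473293004800) (hn₂ : n₂ ∣ 4089470473293004800) (h₁ : n₁ ≠ 1) (h₂ : n₂ ≠ 1)
    (hp : ∀ p ∈ ([3, 5, 7, 11, 13, 17, 23] : List ℕ), n₁ % p = 1 ∨ n₂ % p = 1)
    (hX : ∀ x ∈ ([31671] : List ℕ), n₁ ∣ x ∨ n₂ ∣ x) : False := by
  have hN : num [(2, 18), (3, 13), (5, 2), (7, 1), (11, 1), (13, 1), (17, 1), (23, 1)] = 4089470473293004800 := by decide +kernel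
  exact kill [(2, 18), (3, 13), (5, 2), (7, 1), (11, 1), (13, 1), (17, 1), (23, 1)] [3, 5, 7, 11, 13, 17, 23] 5214084628724503356405564600975359
    20282409603651670423947259674624 [4096, 8707129344] [31671]
    (by decide +kernel) fi23_check1 fi23_check2 fi23_check3 (hN ▸ hn₁) (hN ▸ hn₂) h₁ h₂ hp hX

theorem j4_check1 : allDiv (check1 [3, 5, 7, 11, 23, 29, 31, 37, 43] 748638117731495105184956841463557119942330432744284345452322899677220464500117498729159511280618702107295411987283967 0
    []) [(2, 21), (3, 3), (5, 1), (7, 1), (11, 3), (23, 1), (29, 1), (31, 1), (37, 1), (43, 1)] 1 = true := by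
  decide +kernel

theorem j4_check2 : check2 9 748638117731495105184956841463557119942330432744284345452322899677220464500117498729159511280618702107295411987283967
    0 = true := by
  decide +kernel

theorem j4_check3 : check3 [3, 5, 7, 11, 23, 29, 31, 37, 43] [] [] = true := by
  decide +kernel

theorem j4 {n₁ n₂ : ℕ} (hn₁ : n₁ ∣ 86775571046077562880) (hn₂ : n₂ ∣ 86775571046077562880) (h₁ : n₁ ≠ 1) (h₂ : n₂ ≠ 1)
    (hp : ∀ p ∈ ([3, 5, 7, 11, 23, 29, 31, 37, 43] : List ℕ), n₁ % p = 1 ∨ n₂ % p = 1)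
    (hX : ∀ x ∈ ([] : List ℕ), n₁ ∣ x ∨ n₂ ∣ x) : False := by
  have hN : num [(2, 21), (3, 3), (5, 1), (7, 1), (11, 3), (23, 1), (29, 1), (31, 1), (37, 1), (43, 1)] = 86775571046077562880 := by decide +kernel
  exact kill [(2, 21), (3, 3), (5, 1), (7, 1), (11, 3), (23, 1), (29, 1), (31, 1), (37, 1), (43, 1)] [3, 5, 7, 11, 23, 29, 31, 37, 43] 748638117731495105184956841463557119942330432744284345452322899677220464500117498729159511280618702107295411987283967
    0 [] []
    (by decide +kernel) j4_check1 j4_check2 j4_check3 (hN ▸ hn₁) (hN ▸ hn₂) h₁ h₂ hp hX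

end Cfsg.Agent.H584.TwoNum
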