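import Mathlib
import Cfsg.Agent.H580.Two
import Cfsg.Agent.H584.TwoNum

/-!
# Two classes of non-nilpotent maximal subgroups: the numerical criterion

`not_twoMax`: a finite simple group `T` of the given order, with some subgroups of known index, has at least three classes
of non-nilpotent maximal subgroups, provided the search `TwoNum.kill` finds nothing.
-/

set_option autoImplicit false
open scoped Pointwise

namespace Cfsg.Agent.H584.TwoCore

open Cfsg.Agent.H580.Two Cfsg.Agent.H580.MaxInv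

universe u v

/-- A maximal subgroup, of order divisible by an odd prime, of a nonabelian simple group is not nilpotent. -/
theorem not_nilpotent {T : Type u} [Group T] [Finite T] [IsSimpleGroup T] (hna : ¬ Group.IsSolvable T)
    {M : Subgroup T} (hM : IsCoatom M) {r : ℕ} (hr : r.Prime) (hr2 : r ≠ 2) (hrM : r ∣ Nat.card M) :
    ¬ Group.IsNilpotent M := by
  intro hnil
  have := Fact.mk hr
  obtain ⟨P0⟩ : Nonempty (Sylow r M) := inferInstance
  have hP0n : (P0 : Subgroup M).Normal := by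
    have q := (Group.isNilpotent_of_finite_tfae (G := M)).out 0 3
    exact q.mp hnil r inferInstance P0
  have hP0 : (P0 : Subgroup M) ≠ ⊥ := P0.ne_bot_of_dvd_card hrM
  set P1 : Subgroup T := (P0 : Subgroup M).map M.subtype with hP1
  have hP1p : IsPGroup r P1 := P0.2.map _
  have hP1M : P1 ≤ M := Subgroup.map_subtype_le _
  have hMn : M ≤ Subgroup.normalizer (P1 : Set T) := by
    intro m hm
    rw [Subgroup.mem_normalizer_iff]
    intro x
    constructor
    · rintro ⟨y, hy, rfl⟩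
      exact ⟨⟨m, hm⟩ * y * ⟨m, hm⟩⁻¹, hP0n.conj_mem _ hy _, rfl⟩
    · rintro ⟨y, hy, h⟩
      refine ⟨⟨m, hm⟩⁻¹ * y * ⟨m, hm⟩⁻¹⁻¹, hP0n.conj_mem _ hy _, ?_⟩
      rw [map_mul, map_mul, h, map_inv, map_inv]
      change m⁻¹ * (m * x * m⁻¹) * m⁻¹⁻¹ = x
      group
  have hnt : Subgroup.normalizer (P1 : Set T) ≠ ⊤ := by
    intro h
    have hn := Subgroup.normalizer_eq_top_iff.mp h
    rcases hn.eq_bot_or_eq_top with h | h
    · rw [hP1, Subgroup.map_eq_bot_iff_of_injective _ M.subtype_injective] at h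
      exact hP0 h
    · exact hM.1 (top_le_iff.mp (h ▸ hP1M))
  have hMe : Subgroup.normalizer (P1 : Set T) = M := by
    rcases hMn.eq_or_lt with h | h
    · exact h.symm
    · exact absurd (hM.2 _ h) hnt
  obtain ⟨R, hR⟩ := hP1p.exists_le_sylow
  have hRM : (R : Subgroup T) ⊓ M ≤ P1 := by
    have h1 : IsPGroup r (((R : Subgroup T) ⊓ M).subgroupOf M) := by
      have : IsPGroup r ((R : Subgroup T) ⊓ M : Subgroup T) := R.2.to_le inf_le_left
      exact this.comap_of_injective _ M.subtype_injective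
    have h2 : (P0 : Subgroup M) ≤ ((R : Subgroup T) ⊓ M).subgroupOf M := by
      intro x hx
      exact Subgroup.mem_subgroupOf.mpr ⟨hR ⟨x, hx, rfl⟩, x.2⟩
    have h3 := P0.3 h1 h2
    intro x hx
    have : (⟨x, hx.2⟩ : M) ∈ ((R : Subgroup T) ⊓ M).subgroupOf M := Subgroup.mem_subgroupOf.mpr hx
    rw [h3] at this
    exact ⟨_, this, rfl⟩
  have hRP : (R : Subgroup T) ≤ P1 := by
    by_contra hcon
    have hlt : P1.subgroupOf (R : Subgroup T) ≠ ⊤ := by
      intro h
      exact hcon (Subgroup.subgroupOf_eq_top.mp h)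
    have hRn : Group.IsNilpotent (R : Subgroup T) := R.2.isNilpotent
    have hnc := Group.normalizerCondition_of_isNilpotent (G := (R : Subgroup T))
      (P1.subgroupOf (R : Subgroup T)) (lt_top_iff_ne_top.mpr hlt)
    obtain ⟨x, hx, hxn⟩ := SetLike.exists_of_lt hnc
    apply hxn
    rw [Subgroup.mem_subgroupOf]
    have hxN : (x : T) ∈ Subgroup.normalizer (P1 : Set T) → (x : T) ∈ P1 := fun h =>
      hRM ⟨x.2, hMe ▸ h⟩
    apply hxN
    rw [Subgroup.mem_normalizer_iff]
    rw [Subgroup.mem_normalizer_iff] at hx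
    intro y
    constructor
    · intro hy
      exact (hx ⟨y, hR hy⟩).mp hy
    · intro hy
      have hyR : y ∈ (R : Subgroup T) := by
        have h4 := (R : Subgroup T).mul_mem ((R : Subgroup T).mul_mem ((R : Subgroup T).inv_mem x.2) (hR hy)) x.2
        simpa [mul_assoc] using h4
      exact (hx ⟨y, hyR⟩).mpr hy
  have hRe : (R : Subgroup T) = P1 := le_antisymm hRP hR
  let _ : MulDistribMulAction PUnit.{1} T :=
    { smul := fun _ x => x, one_smul := fun _ => rfl, mul_smul := fun _ _ _ => rfl, smul_mul := fun _ _ _ => rfl,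
      smul_one := fun _ => rfl }
  have htriv : ∀ (a : PUnit.{1}) (x : T), a • x = x := fun _ _ => rfl
  have hinv : ∀ X : Subgroup T, Inv PUnit.{1} X := fun X a x hx => hx
  have hmap : ((R.subtype (le_top : (R : Subgroup T) ≤ ⊤) : Sylow r (⊤ : Subgroup T)) : Subgroup (⊤ : Subgroup T)).map
      (⊤ : Subgroup T).subtype = R := by
    rw [Sylow.coe_subtype, Subgroup.subgroupOf_map_subtype, inf_top_eq]
  have hcard : Nat.card (⊤ : Subgroup T) = Nat.card T := Subgroup.card_top
  refine not_nilp_of_normalizer_le (A := PUnit.{1}) (⊤ : Subgroup T) (hinv _) (fun K hK _ _ => hK.eq_bot_or_eq_top) hr2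
    ?_ ?_ (R.subtype (le_top : (R : Subgroup T) ≤ ⊤)) (hinv _) ((isMaxInv_iff_of_trivial htriv M).mpr hM) ?_ hnil
  · intro h
    apply hna
    have h1 : IsPGroup r T := h.of_equiv Subgroup.topEquiv
    have := h1.isNilpotent
    exact inferInstance
  · rw [hcard]
    exact hrM.trans (Subgroup.card_subgroup_dvd_card M)
  · rw [hmap, hRe, hMe]

/-- a proper subgroup whose order is divisible by an odd prime lies in a conjugate of `M₁` or of `M₂` -/
theorem index_dvd {T : Type u} [Group T] [Finite T] [IsSimpleGroup T] (hna : ¬ Group.IsSolvable T)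
    {M₁ M₂ : Subgroup T} (h : ∀ M : Subgroup T, IsCoatom M → ¬ Group.IsNilpotent M →
      ∃ c : T, (M = MulAut.conj c • M₁ ∨ M = MulAut.conj c • M₂)) {X : Subgroup T} (hX : X ≠ ⊤) {r : ℕ} (hr : r.Prime)
    (hr2 : r ≠ 2) (hrX : r ∣ Nat.card X) : M₁.index ∣ X.index ∨ M₂.index ∣ X.index := by
  obtain ⟨M, hM, hXM⟩ := (eq_top_or_exists_le_coatom X).resolve_left hX
  have hn := not_nilpotent hna hM hr hr2 (hrX.trans (Subgroup.card_dvd_of_le hXM))
  obtain ⟨c, hc | hc⟩ := h M hM hn
  · left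
    rw [← index_conj c M₁, ← hc]
    exact Subgroup.index_dvd_of_le hXM
  · right
    rw [← index_conj c M₂, ← hc]
    exact Subgroup.index_dvd_of_le hXM

/-- a finite simple group of order `2 * m`, `m ≥ 2`, is not solvable -/
theorem not_solvable {T : Type u} [Group T] [Finite T] [IsSimpleGroup T] {N : ℕ} (hN : Nat.card T = N)
    (h : ¬ N.Prime) : ¬ Group.IsSolvable T := by
  intro hs
  have hc : ∀ a b : T, a * b = b * a := IsSimpleGroup.comm_iff_isSolvable.mpr hs
  let _ : CommGroup T := { (inferInstance : Group T) with mul_comm := hc }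
  have := IsSimpleGroup.prime_card (α := T)
  rw [hN] at this
  exact h this

/-- **The numerical criterion.** Each number of `idx` is a multiple of the index of some proper subgroup of order divisible
by an odd prime. -/
theorem not_twoMax {T : Type u} [Group T] [Finite T] [IsSimpleGroup T] {N : ℕ} (hN : Nat.card T = N) (hNp : ¬ N.Prime)
    (ps idx : List ℕ) (hps : ∀ p ∈ ps, p.Prime ∧ p ≠ 2 ∧ p ∣ N)
    (hidx : ∀ x ∈ idx, ∃ X : Subgroup T, X ≠ ⊤ ∧ (∃ r : ℕ, r.Prime ∧ r ≠ 2 ∧ r ∣ Nat.card X) ∧ X.index ∣ x)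
    (hk : ∀ n₁ n₂ : ℕ, n₁ ∣ N → n₂ ∣ N → n₁ ≠ 1 → n₂ ≠ 1 → (∀ p ∈ ps, n₁ % p = 1 ∨ n₂ % p = 1) →
      (∀ x ∈ idx, n₁ ∣ x ∨ n₂ ∣ x) → False) : ¬ TwoMax T := by
  intro h
  have hna := not_solvable hN hNp
  obtain ⟨M₁, M₂, hM₁, hM₂, -, -, hM, hm, -⟩ := h.numeric hna
  refine hk M₁.index M₂.index (hN ▸ Subgroup.index_dvd_card M₁) (hN ▸ Subgroup.index_dvd_card M₂)
    (fun h => hM₁.1 (Subgroup.index_eq_one.mp h)) (fun h => hM₂.1 (Subgroup.index_eq_one.mp h)) ?_ ?_
  · intro p hp
    obtain ⟨h1, h2, h3⟩ := hps p hp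
    have e : ∀ n : ℕ, n ≡ 1 [MOD p] → n % p = 1 := fun n hn => by
      have h5 : n % p = 1 % p := hn
      rwa [Nat.mod_eq_of_lt h1.one_lt] at h5
    exact (hm p h1 h2 (hN ▸ h3)).imp (e _) (e _)
  · intro x hx
    obtain ⟨X, hX, ⟨r, hr, hr2, hrX⟩, hXx⟩ := hidx x hx
    exact (index_dvd hna hM hX hr hr2 hrX).imp (fun h => h.trans hXx) (fun h => h.trans hXx)

/-- a subgroup of given index, as needed by `not_twoMax` -/
theorem exists_of_index {T : Type u} [Group T] [Finite T] {N x r : ℕ} (hN : Nat.card T = N) {X : Subgroup T}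
    (hX : X.index = x) (hx : x ≠ 1) (hr : r.Prime) (hr2 : r ≠ 2) (hrN : r ∣ N / x) :
    ∃ X : Subgroup T, X ≠ ⊤ ∧ (∃ r : ℕ, r.Prime ∧ r ≠ 2 ∧ r ∣ Nat.card X) ∧ X.index ∣ x := by
  refine ⟨X, fun h => hx ?_, ⟨r, hr, hr2, ?_⟩, hX ▸ dvd_rfl⟩
  · rw [← hX, h, Subgroup.index_top]
  · have h1 := X.card_mul_index
    have h2 : Nat.card X = N / x := by
      rw [← hN, ← h1, ← hX, Nat.mul_div_cancel _ (Nat.pos_of_ne_zero X.index_ne_zero_of_finite)]
    rw [h2]
    exact hrN

/-- transport of an index -/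
theorem exists_index_congr {T : Type u} {S : Type v} [Group T] [Group S] (e : T ≃* S) {x : ℕ}
    (h : ∃ X : Subgroup S, X.index = x) : ∃ X : Subgroup T, X.index = x := by
  obtain ⟨X, hX⟩ := h
  exact ⟨X.comap e.toMonoidHom, by rw [← hX]; exact Subgroup.index_comap_of_surjective _ e.surjective⟩

end Cfsg.Agent.H584.TwoCore
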