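import Cfsg.Agent.H584.TwoNum

/-!
# Two indices, second version of the search

`kill2`: there are no `n₁ ∣ N₁` and `n₂ ∣ N₂`, both different from `1`, such that each prime `p` of the list `ps`
satisfies `n₁ ≡ 1` or `n₂ ≡ 1` modulo `p`. First the masks of the divisors `n₁` are collected; for each maximal mask the
divisors `n₂` which are `1` modulo all the remaining primes are searched.
-/

set_option autoImplicit false

namespace Cfsg.Agent.H584.TwoNum

/-- the primes not in the mask `c` -/
def comp : List ℕ → ℕ → List ℕ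
  | [], _ => []
  | p :: ps, c => cond (Nat.beq (c % 2) 1) (comp ps (c / 2)) (p :: comp ps (c / 2))

theorem mem_comp : ∀ {ps : List ℕ} {c p : ℕ}, p ∈ comp ps c → ∃ i, ∃ h : i < ps.length, ps[i] = p ∧ c.testBit i = false
  | [], c, p, h => by simp [comp] at h
  | q :: ps, c, p, h => by
    rw [comp] at h
    cases hc : Nat.beq (c % 2) 1
    · rw [hc, cond_false, List.mem_cons] at h
      rcases h with rfl | h
      · refine ⟨0, by simp, by simp, ?_⟩
        rw [Nat.testBit_zero]
        have : ¬ c % 2 = 1 := fun h => by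
          rw [h] at hc; exact Bool.noConfusion hc
        simpa using this
      · obtain ⟨i, hi, h1, h2⟩ := mem_comp h
        refine ⟨i + 1, by simpa using hi, by simpa using h1, ?_⟩
        rw [Nat.testBit_succ]; exact h2
    · rw [hc, cond_true] at h
      obtain ⟨i, hi, h1, h2⟩ := mem_comp h
      refine ⟨i + 1, by simpa using hi, by simpa using h1, ?_⟩
      rw [Nat.testBit_succ]; exact h2

/-- drop the primes of `R` -/
def drop (R : List ℕ) : List (ℕ × ℕ) → List (ℕ × ℕ)
  | [] => []
  | x :: l => cond (R.contains x.1) (drop R l) (x :: drop R l)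

theorem dvd_drop {R : List ℕ} {n : ℕ} : ∀ {l : List (ℕ × ℕ)}, (∀ x ∈ l, x.1.Prime) → (∀ p ∈ R, ¬ p ∣ n) →
    ∀ m, m ∣ n → m ∣ num l → m ∣ num (drop R l)
  | [], _, _, m, _, h => h
  | x :: l, hl, hR, m, hmn, h => by
    rw [drop]
    cases hc : R.contains x.1
    · rw [cond_false, num]
      rw [num] at h
      obtain ⟨a, b, ha, hb, rfl⟩ := (Nat.dvd_mul).1 h
      exact mul_dvd_mul ha (dvd_drop (fun y hy => hl y (List.mem_cons_of_mem _ hy)) hR b
        ((Dvd.intro_left a rfl).trans hmn) hb)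
    · rw [cond_true]
      have hx : x.1 ∈ R := List.contains_iff_mem.1 hc
      have hnd : ¬ x.1 ∣ m := fun h' => hR _ hx (h'.trans hmn)
      have hcop : Nat.Coprime m (x.1 ^ x.2) :=
        Nat.Coprime.pow_right _ (((Nat.Prime.coprime_iff_not_dvd (hl x (by simp))).2 hnd).symm)
      rw [num] at h
      exact dvd_drop (fun y hy => hl y (List.mem_cons_of_mem _ hy)) hR m hmn (hcop.dvd_of_dvd_mul_left h)

theorem prime_drop {R : List ℕ} : ∀ {l : List (ℕ × ℕ)}, (∀ x ∈ l, x.1.Prime) → ∀ x ∈ drop R l, x.1.Prime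
  | [], _, x, h => by simp [drop] at h
  | y :: l, hl, x, h => by
    rw [drop] at h
    cases hc : R.contains y.1
    · rw [hc, cond_false, List.mem_cons] at h
      rcases h with rfl | h
      · exact hl _ (by simp)
      · exact prime_drop (fun y hy => hl y (List.mem_cons_of_mem _ hy)) x h
    · rw [hc, cond_true] at h
      exact prime_drop (fun y hy => hl y (List.mem_cons_of_mem _ hy)) x h

/-- check for `n₁` -/
def chk1 (ps : List ℕ) (B n : ℕ) : Bool := Bool.rec (bit B (mask ps n)) true (Nat.beq n 1)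

theorem chk1_spec {ps : List ℕ} {B n : ℕ} (h : chk1 ps B n = true) (hn : n ≠ 1) : bit B (mask ps n) = true := by
  unfold chk1 at h
  cases hc : Nat.beq n 1
  · rw [hc] at h
    exact h
  · exact absurd (Nat.eq_of_beq_eq_true hc) hn

/-- check for `n₂`: it is `1` or not `1` modulo some prime of `R` -/
def chk (R : List ℕ) (n : ℕ) : Bool :=
  List.rec (Nat.beq n 1) (fun p _ ih => Bool.rec true ih (Nat.beq (Nat.mod n p) 1)) R

theorem chk_spec : ∀ {R : List ℕ} {n : ℕ}, chk R n = true → n = 1 ∨ ∃ p ∈ R, ¬ n % p = 1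
  | [], n, h => Or.inl (Nat.eq_of_beq_eq_true h)
  | p :: R, n, h => by
    have h' : chk (p :: R) n = Bool.rec true (chk R n) (Nat.beq (Nat.mod n p) 1) := rfl
    have h2 : Nat.beq (Nat.mod n p) 1 = Nat.beq (n % p) 1 := rfl
    rw [h', h2] at h
    cases hc : Nat.beq (n % p) 1
    · right
      refine ⟨p, by simp, fun h => ?_⟩
      rw [h] at hc; exact Bool.noConfusion hc
    · rw [hc] at h
      rcases chk_spec h with h | ⟨q, hq, h⟩
      · exact Or.inl h
      · exact Or.inr ⟨q, List.mem_cons_of_mem _ hq, h⟩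

/-- the masks in the bit set `B` are contained in masks of the list `C` -/
def checkC (k B : ℕ) (C : List ℕ) : Bool :=
  (List.range (2 ^ k)).all fun m => Bool.rec true
    (List.rec false (fun c _ ih => Bool.rec ih true (Nat.beq (Nat.land m c) m)) C) (bit B m)

theorem checkC_aux {m : ℕ} : ∀ {C : List ℕ}, (List.rec false (fun c _ ih => Bool.rec ih true (Nat.beq (Nat.land m c) m)) C
    : Bool) = true → ∃ c ∈ C, m &&& c = m
  | [], h => Bool.noConfusion h
  | c :: C, h => by
    change (Bool.rec (List.rec false (fun c _ ih => Bool.rec ih true (Nat.beq (Nat.land m c) m)) C : Bool) true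
      (Nat.beq (Nat.land m c) m) : Bool) = true at h
    cases hc : Nat.beq (Nat.land m c) m
    · rw [hc] at h
      obtain ⟨c', h1, h2⟩ := checkC_aux h
      exact ⟨c', List.mem_cons_of_mem _ h1, h2⟩
    · exact ⟨c, List.mem_cons_self, Nat.eq_of_beq_eq_true hc⟩

/-- the search for the second index -/
def checkR (ps : List ℕ) (l : List (ℕ × ℕ)) (C : List ℕ) : Bool :=
  C.all fun c => allDiv (chk (comp ps c).reverse) (drop (comp ps c) l) 1

theorem checkR_append {ps : List ℕ} {l : List (ℕ × ℕ)} {C D : List ℕ} (h1 : checkR ps l C = true)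
    (h2 : checkR ps l D = true) : checkR ps l (C ++ D) = true := by
  unfold checkR at h1 h2 ⊢
  rw [List.all_append, h1, h2]
  rfl

theorem allDiv_split {f : ℕ → Bool} {p e : ℕ} {l : List (ℕ × ℕ)} {n : ℕ}
    (h : ∀ i ≤ e, allDiv f l (n * p ^ i) = true) : allDiv f ((p, e) :: l) n = true := by
  rw [allDiv_cons]
  change loopP (allDiv f l) p e n = true
  induction e generalizing n with
  | zero => rw [loopP_zero]; simpa using h 0 le_rfl
  | succ e ih =>
    rw [loopP_succ, Bool.and_eq_true]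
    refine ⟨by simpa using h 0 (Nat.zero_le _), ih fun i hi => ?_⟩
    rw [mul_assoc, ← pow_succ']
    exact h (i + 1) (by omega)

theorem kill2 (l₁ l₂ : List (ℕ × ℕ)) (ps : List ℕ) (B : ℕ) (C : List ℕ)
    (hl₁ : ∀ x ∈ l₁, x.1.Prime) (hl₂ : ∀ x ∈ l₂, x.1.Prime)
    (h1 : allDiv (chk1 ps B) l₁ 1 = true)
    (h2 : checkC ps.length B C = true)
    (h3 : checkR ps l₂ C = true) {n₁ n₂ : ℕ} (hn₁ : n₁ ∣ num l₁) (hn₂ : n₂ ∣ num l₂)
    (h₁ : n₁ ≠ 1) (h₂ : n₂ ≠ 1) (hp : ∀ p ∈ ps, n₁ % p = 1 ∨ n₂ % p = 1) : False := by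
  have c₁ := allDiv_spec hl₁ h1 n₁ hn₁
  rw [one_mul] at c₁
  replace c₁ := chk1_spec c₁ h₁
  unfold checkC at h2
  simp only [List.all_eq_true, List.mem_range] at h2
  have g := h2 _ (mask_lt ps n₁)
  rw [c₁] at g
  obtain ⟨c, hc, hcm'⟩ := checkC_aux g
  have key : ∀ p ∈ comp ps c, n₂ % p = 1 := by
    intro p hpc
    obtain ⟨i, hi, hip, hci⟩ := mem_comp hpc
    rcases hp p (hip ▸ List.getElem_mem hi) with h | h
    · exfalso
      have : (mask ps n₁).testBit i = true := (testBit_mask ps n₁ i).2 ⟨hi, by rw [hip]; exact h⟩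
      rw [← hcm', Nat.testBit_and, hci, Bool.and_false] at this
      exact Bool.noConfusion this
    · exact h
  have hnd : ∀ p ∈ comp ps c, ¬ p ∣ n₂ := by
    intro p hpc hd
    have := key p hpc
    rw [Nat.mod_eq_zero_of_dvd hd] at this
    exact absurd this (by norm_num)
  have hd := dvd_drop hl₂ hnd n₂ dvd_rfl hn₂
  unfold checkR at h3
  simp only [List.all_eq_true] at h3
  have h4 := allDiv_spec (prime_drop hl₂) (h3 c hc) n₂ hd
  rw [one_mul] at h4
  rcases chk_spec h4 with h | ⟨p, hpc, h⟩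
  · exact h₂ h
  · exact h (key p (List.mem_reverse.1 hpc))

end Cfsg.Agent.H584.TwoNum
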