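import Mathlib
import Cfsg.Agent.H584.WrNorm

/-!
# The growth of `D₈ ≀ C₂`

`ι : W →* S` injective, `S` a 2-group of sectional rank at most 4, `u ∈ N_S(W) - W`. Up to changing `u` modulo `W` and
`ι` by an automorphism of `W`, `u` interchanges `wa`, `wb` and `wc`, `wd`, centralizes `wt` modulo `wz`, `u² ∈ ⟨wz⟩`.
-/

set_option autoImplicit false

namespace Cfsg.Agent.H584.WrRank

open Subgroup Cfsg Cfsg.Agent.TwoFusion.SectionalRank Cfsg.Agent.H584.WrModel Cfsg.Agent.H584.WrModel.W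

/-- `φ` interchanges `wa` and `wb`, `wc` and `wd` modulo `Z0` and centralizes `Z0`. -/
structure Sw (φ : W →* W) : Prop where
  z1 : φ wz1 = wz1
  z2 : φ wz2 = wz2
  a : φ wa * wb ∈ Z0
  b : φ wb * wa ∈ Z0
  c : φ wc * wd ∈ Z0
  d : φ wd * wc ∈ Z0

theorem mul_right_Z0 {ζ w : W} (hζ : ζ ∈ Z0) : ζ * w ∈ Z0 ↔ w ∈ Z0 := Subgroup.mul_mem_cancel_left Z0 hζ

theorem Z0_comm_J0 {ζ w : W} (hζ : ζ ∈ Z0) (hw : w ∈ J0) : ζ * w = w * ζ := by
  rw [mem_Z0, inZ_iff] at hζ
  rw [mem_J0] at hw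
  have key : ∀ ζ ∈ listZ, ∀ w : W, InJ w → ζ * w = w * ζ := by decide +kernel
  exact key ζ hζ w hw

theorem Z0_le_J0 : Z0 ≤ J0 := inf_le_left.trans A0_le_J0

theorem Z0_sq {ζ : W} (hζ : ζ ∈ Z0) : ζ * ζ = 1 := A0_sq (mem_A0.1 hζ.1)

/-- Changing by an inner automorphism from `J0`. -/
theorem Sw.conj {φ : W →* W} (h : Sw φ) {g : W} (hg : g ∈ J0) :
    Sw ((MulAut.conj g).toMonoidHom.comp φ) := by
  have hg' : InJ g := mem_J0.1 hg
  have key : ∀ g : W, InJ g → g * wz1 * g⁻¹ = wz1 ∧ g * wz2 * g⁻¹ = wz2 ∧ g * wa * g⁻¹ * wa ∈ listZ ∧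
      g * wb * g⁻¹ * wb ∈ listZ ∧ g * wc * g⁻¹ * wc ∈ listZ ∧ g * wd * g⁻¹ * wd ∈ listZ := by decide +kernel
  obtain ⟨k1, k2, k3, k4, k5, k6⟩ := key g hg'
  have aux : ∀ x y : W, y * y = 1 → x * y ∈ Z0 → g * y * g⁻¹ * y ∈ listZ → g * x * g⁻¹ * y ∈ Z0 := by
    intro x y hy hxy hl
    rw [← inZ_iff, ← mem_Z0] at hl
    have e : g * x * g⁻¹ * y = (x * y) * (g * y * g⁻¹ * y) := by
      have h3 : g * (x * y) = (x * y) * g := (Z0_comm_J0 hxy hg).symm
      calc g * x * g⁻¹ * y = g * x * (y * y) * g⁻¹ * y := by rw [hy, mul_one]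
        _ = (g * (x * y)) * y * g⁻¹ * y := by group
        _ = ((x * y) * g) * y * g⁻¹ * y := by rw [h3]
        _ = (x * y) * (g * y * g⁻¹ * y) := by group
    rw [e]
    exact mul_mem hxy hl
  exact ⟨by change g * φ wz1 * g⁻¹ = wz1; rw [h.z1, k1], by change g * φ wz2 * g⁻¹ = wz2; rw [h.z2, k2],
    aux _ _ (by decide +kernel) h.a k4, aux _ _ (by decide +kernel) h.b k3,
    aux _ _ (by decide +kernel) h.c k6, aux _ _ (by decide +kernel) h.d k5⟩

section

variable {S : Type*} [Group S] [Finite S] (h2 : IsPGroup 2 S) (hr : SectionalPRankLE 2 4 S)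
  (ι : W →* S) (hι : Function.Injective ι)

/-- the data of an element `u` -/
structure Dat (ι : W →* S) (u : S) (φ : W →* W) (j : W) : Prop where
  nm : u ∉ ι.range
  hφ : ∀ w, u * ι w * u⁻¹ = ι (φ w)
  sw : Sw φ
  sq : u * u = ι j
  jJ : j ∈ J0

omit [Finite S] in
theorem Dat.mul {ι : W →* S} {u : S} {φ : W →* W} {j : W} (h : Dat ι u φ j) {g : W} (hg : g ∈ J0)
    (hg' : g * φ g * j ∈ J0) : Dat ι (ι g * u) ((MulAut.conj g).toMonoidHom.comp φ) (g * φ g * j) where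
  nm := by
    intro h3
    exact h.nm ((Subgroup.mul_mem_cancel_left _ (show ι g ∈ ι.range from ⟨g, rfl⟩)).1 h3)
  hφ := by
    intro w
    change _ = ι (g * φ w * g⁻¹)
    rw [map_mul, map_mul, ← h.hφ, map_inv]
    group
  sw := h.sw.conj hg
  sq := by
    rw [map_mul, map_mul, ← h.hφ, ← h.sq]
    group
  jJ := hg'

include h2 hr hι

theorem exists_dat {x : S} (hx : x ∉ ι.range) (hxn : ∀ p ∈ ι.range, x * p * x⁻¹ ∈ ι.range)
    (hxx : x * x ∈ ι.range) : ∃ u φ j, Dat ι u φ j := by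
  -- first with `φ wz1 = wz1`
  have step : ∀ (x : S), x ∉ ι.range → x * x ∈ ι.range → ∀ φ : W →* W, Function.Injective φ →
      (∀ w, x * ι w * x⁻¹ = ι (φ w)) → φ wz1 = wz1 → φ wz2 = wz2 → ∃ u φ j, Dat ι u φ j := by
    intro x hx hxx φ hinj hφ hz1 hz2
    obtain ⟨hA, hB⟩ := swaps h2 hr ι hι hx hinj hφ
    have mA : ∀ v ∈ A0, φ v ∈ B0 := fun v hv => by rw [← hA]; exact mem_map_of_mem φ hv
    have mB : ∀ v ∈ B0, φ v ∈ A0 := fun v hv => by rw [← hB]; exact mem_map_of_mem φ hv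
    have ia : wa ∈ A0 := by rw [mem_A0]; decide +kernel
    have ib : wb ∈ B0 := by rw [mem_B0]; decide +kernel
    have ic : wc ∈ A0 := by rw [mem_A0]; decide +kernel
    have id' : wd ∈ B0 := by rw [mem_B0]; decide +kernel
    have q := quad (mem_A0.1 (mB _ ib)) (mem_B0.1 (mA _ ia)) (mem_A0.1 (mB _ id')) (mem_B0.1 (mA _ ic))
      (by rw [← map_mul, ← map_mul, show wb * wa * (wb * wa) = wz1 by decide +kernel, hz1])
      (by rw [← map_mul, ← map_mul, show wd * wc * (wd * wc) = wz2 by decide +kernel, hz2])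
      (by rw [← map_mul, ← map_mul, show wb * wc = wc * wb by decide +kernel])
      (by rw [← map_mul, ← map_mul, show wa * wd = wd * wa by decide +kernel])
    obtain ⟨qb, qa, qd, qc⟩ := q
    obtain ⟨j, hj⟩ := hxx
    refine ⟨x, φ, j, ⟨hx, hφ, ⟨hz1, hz2, qa, qb, qc, qd⟩, hj.symm, ?_⟩⟩
    rw [mem_J0, InJ]
    apply hι
    rw [map_mul, map_mul, hj]
    have h3 : x * ι wz1 = ι wz1 * x := by
      have := hφ wz1
      rw [hz1] at this
      exact mul_inv_eq_iff_eq_mul.1 this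
    rw [mul_assoc, h3, ← mul_assoc, h3, mul_assoc]
  obtain ⟨φ, hinj, hφ⟩ := exists_phi ι hι x hxn
  rcases map_wz1 hinj with ⟨h1, h3⟩ | ⟨h1, h3⟩
  · exact step x hx hxx φ hinj hφ h1 h3
  · refine step (x * ι wt) ?_ ?_ (φ.comp (MulAut.conj wt).toMonoidHom)
      (hinj.comp (MulAut.conj wt).injective) ?_ ?_ ?_
    · intro h
      exact hx ((Subgroup.mul_mem_cancel_right _ (show ι wt ∈ ι.range from ⟨wt, rfl⟩)).1 h)
    · have h4 : x * ι wt * (x * ι wt) = (x * ι wt * x⁻¹) * (x * x) * ι wt := by group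
      rw [h4, hφ]
      exact mul_mem (mul_mem ⟨_, rfl⟩ hxx) ⟨_, rfl⟩
    · intro w
      change _ = ι (φ (wt * w * wt⁻¹))
      rw [← hφ, map_mul, map_mul, map_inv]
      group
    · change φ (wt * wz1 * wt⁻¹) = wz1
      rw [show wt * wz1 * wt⁻¹ = wz2 by decide +kernel, h3]
    · change φ (wt * wz2 * wt⁻¹) = wz2
      rw [show wt * wz2 * wt⁻¹ = wz1 by decide +kernel, h1]

omit [Finite S] h2 hr in
/-- `φ ∘ φ` is conjugation by `j` -/
theorem Dat.phi_phi {u : S} {φ : W →* W} {j : W} (h : Dat ι u φ j) (w : W) : φ (φ w) = j * w * j⁻¹ := by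
  apply hι
  rw [← h.hφ, ← h.hφ, map_mul, map_mul, map_inv, ← h.sq]
  group

omit [Finite S] h2 hr in
/-- Stage B: `u² ∈ Z0`. -/
theorem Dat.stageB {u : S} {φ : W →* W} {j : W} (h : Dat ι u φ j) : ∃ u φ j, Dat ι u φ j ∧ j ∈ Z0 := by
  have sq' : ∀ x y : W, x * x = 1 → y * y = 1 → φ x * y ∈ Z0 → φ y * x ∈ Z0 →
      φ (φ x) * x = φ (φ y) * y := by
    intro x y hx hy hxy hyx
    have e1 : φ x = (φ x * y) * y := by rw [mul_assoc, hy, mul_one]
    have e2 : φ y = (φ y * x) * x := by rw [mul_assoc, hx, mul_one]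
    have e3 : φ (φ x) = (φ x * y) * (φ y * x) * x := by
      calc φ (φ x) = φ ((φ x * y) * y) := by rw [← e1]
        _ = φ (φ x * y) * φ y := map_mul _ _ _
        _ = (φ x * y) * ((φ y * x) * x) := by rw [phi_Z0 h.sw.z1 h.sw.z2 hxy, ← e2]
        _ = (φ x * y) * (φ y * x) * x := by group
    have e4 : φ (φ y) = (φ y * x) * (φ x * y) * y := by
      calc φ (φ y) = φ ((φ y * x) * x) := by rw [← e2]
        _ = φ (φ y * x) * φ x := map_mul _ _ _
        _ = (φ y * x) * ((φ x * y) * y) := by rw [phi_Z0 h.sw.z1 h.sw.z2 hyx, ← e1]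
        _ = (φ y * x) * (φ x * y) * y := by group
    have e5 : (φ x * y) * (φ y * x) = (φ y * x) * (φ x * y) := Z0_comm_J0 hxy (Z0_le_J0 hyx)
    calc φ (φ x) * x = (φ x * y) * (φ y * x) * (x * x) := by rw [e3]; group
      _ = (φ y * x) * (φ x * y) * (y * y) := by rw [hx, hy, e5]
      _ = φ (φ y) * y := by rw [e4]; group
  have hab := sq' wa wb (by decide +kernel) (by decide +kernel) h.sw.a h.sw.b
  have hcd := sq' wc wd (by decide +kernel) (by decide +kernel) h.sw.c h.sw.d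
  rw [h.phi_phi ι hι, h.phi_phi ι hι] at hab hcd
  have key : ∀ j : W, InJ j → j * wa * j⁻¹ * wa = j * wb * j⁻¹ * wb → j * wc * j⁻¹ * wc = j * wd * j⁻¹ * wd →
      InZ j ∨ InZ (wa * wb * j) ∨ InZ (wc * wd * j) ∨ InZ (wa * wc * (wb * wd) * j) := by decide +kernel
  have ha := h.sw.a
  have hc := h.sw.c
  have ea : φ wa = (φ wa * wb) * wb := by rw [mul_assoc, show wb * wb = 1 by decide +kernel, mul_one]
  have ec : φ wc = (φ wc * wd) * wd := by rw [mul_assoc, show wd * wd = 1 by decide +kernel, mul_one]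
  have iJ : wa ∈ J0 ∧ wb ∈ J0 ∧ wc ∈ J0 ∧ wd ∈ J0 := by
    simp only [mem_J0]
    decide +kernel
  obtain ⟨ja, jb, jc, jd⟩ := iJ
  rcases key j (mem_J0.1 h.jJ) hab hcd with h3 | h3 | h3 | h3
  · exact ⟨u, φ, j, h, mem_Z0.2 h3⟩
  · have e : wa * φ wa * j = (φ wa * wb) * (wa * wb * j) := by
      have h4 : wa * (φ wa * wb) = (φ wa * wb) * wa := (Z0_comm_J0 ha ja).symm
      calc wa * φ wa * j = wa * ((φ wa * wb) * wb) * j := by rw [← ea]
        _ = (wa * (φ wa * wb)) * wb * j := by group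
        _ = ((φ wa * wb) * wa) * wb * j := by rw [h4]
        _ = (φ wa * wb) * (wa * wb * j) := by group
    have hZ : wa * φ wa * j ∈ Z0 := by rw [e]; exact mul_mem ha (mem_Z0.2 h3)
    exact ⟨_, _, _, h.mul ja (Z0_le_J0 hZ), hZ⟩
  · have e : wc * φ wc * j = (φ wc * wd) * (wc * wd * j) := by
      have h4 : wc * (φ wc * wd) = (φ wc * wd) * wc := (Z0_comm_J0 hc jc).symm
      calc wc * φ wc * j = wc * ((φ wc * wd) * wd) * j := by rw [← ec]
        _ = (wc * (φ wc * wd)) * wd * j := by group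
        _ = ((φ wc * wd) * wc) * wd * j := by rw [h4]
        _ = (φ wc * wd) * (wc * wd * j) := by group
    have hZ : wc * φ wc * j ∈ Z0 := by rw [e]; exact mul_mem hc (mem_Z0.2 h3)
    exact ⟨_, _, _, h.mul jc (Z0_le_J0 hZ), hZ⟩
  · have e : wa * wc * φ (wa * wc) * j = (φ wa * wb) * (φ wc * wd) * (wa * wc * (wb * wd) * j) := by
      have h4 : wa * wc * (φ wa * wb) = (φ wa * wb) * (wa * wc) := (Z0_comm_J0 ha (mul_mem ja jc)).symm
      have h5 : wa * wc * wb * (φ wc * wd) = (φ wc * wd) * (wa * wc * wb) :=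
        (Z0_comm_J0 hc (mul_mem (mul_mem ja jc) jb)).symm
      calc wa * wc * φ (wa * wc) * j = wa * wc * (((φ wa * wb) * wb) * ((φ wc * wd) * wd)) * j := by
            rw [map_mul, ← ea, ← ec]
        _ = (wa * wc * (φ wa * wb)) * wb * (φ wc * wd) * wd * j := by group
        _ = (φ wa * wb) * (wa * wc * wb * (φ wc * wd)) * wd * j := by rw [h4]; group
        _ = (φ wa * wb) * (φ wc * wd) * (wa * wc * (wb * wd) * j) := by rw [h5]; group
    have hZ : wa * wc * φ (wa * wc) * j ∈ Z0 := by rw [e]; exact mul_mem (mul_mem ha hc) (mem_Z0.2 h3)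
    exact ⟨_, _, _, h.mul (mul_mem ja jc) (Z0_le_J0 hZ), hZ⟩

omit [Finite S] h2 hr in
/-- when `j ∈ Z0`: the corrections of `wa` and `wb` agree -/
theorem Dat.eqs {u : S} {φ : W →* W} {j : W} (h : Dat ι u φ j) (hj : j ∈ Z0) :
    φ wa * wb = φ wb * wa ∧ φ wc * wd = φ wd * wc := by
  have aux : ∀ x y : W, x ∈ J0 → x * x = 1 → y * y = 1 → φ x * y ∈ Z0 → φ y * x ∈ Z0 →
      φ x * y = φ y * x := by
    intro x y hxJ hx hy hxy hyx
    have e1 : φ x = (φ x * y) * y := by rw [mul_assoc, hy, mul_one]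
    have e2 : φ y = (φ y * x) * x := by rw [mul_assoc, hx, mul_one]
    have e3 : φ (φ x) = (φ x * y) * (φ y * x) * x := by
      calc φ (φ x) = φ ((φ x * y) * y) := by rw [← e1]
        _ = φ (φ x * y) * φ y := map_mul _ _ _
        _ = (φ x * y) * ((φ y * x) * x) := by rw [phi_Z0 h.sw.z1 h.sw.z2 hxy, ← e2]
        _ = (φ x * y) * (φ y * x) * x := by group
    rw [h.phi_phi ι hι, Z0_comm_J0 hj hxJ, mul_inv_cancel_right] at e3
    have e4 : (φ x * y) * (φ y * x) = 1 := by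
      have : (φ x * y) * (φ y * x) * x = 1 * x := by rw [one_mul, ← e3]
      exact mul_right_cancel this
    have e5 : φ x * y = (φ y * x)⁻¹ := eq_inv_of_mul_eq_one_left e4
    rw [e5]
    exact inv_eq_of_mul_eq_one_left (Z0_sq hyx)
  have iJ : wa ∈ J0 ∧ wc ∈ J0 := by
    simp only [mem_J0]
    decide +kernel
  exact ⟨aux wa wb iJ.1 (by decide +kernel) (by decide +kernel) h.sw.a h.sw.b,
    aux wc wd iJ.2 (by decide +kernel) (by decide +kernel) h.sw.c h.sw.d⟩

omit [Finite S] h2 hr in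
/-- Stage C: moreover `φ wa * wb ∈ {1, wz2}` and `φ wc * wd ∈ {1, wz1}`. -/
theorem Dat.stageC {u : S} {φ : W →* W} {j : W} (h : Dat ι u φ j) (hj : j ∈ Z0) :
    ∃ u φ j, Dat ι u φ j ∧ j ∈ Z0 ∧ (φ wa * wb = 1 ∨ φ wa * wb = wz2) ∧ (φ wc * wd = 1 ∨ φ wc * wd = wz1) := by
  have iJ : wa ∈ J0 ∧ wb ∈ J0 ∧ wc ∈ J0 ∧ wd ∈ J0 := by
    simp only [mem_J0]
    decide +kernel
  obtain ⟨ja, jb, jc, jd⟩ := iJ
  -- first fix `a`
  have stepA : ∃ u φ j, Dat ι u φ j ∧ j ∈ Z0 ∧ (φ wa * wb = 1 ∨ φ wa * wb = wz2) := by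
    have hcase : (φ wa * wb = 1 ∨ φ wa * wb = wz2) ∨ (φ wa * wb = wz1 ∨ φ wa * wb = wz1 * wz2) := by
      rcases Z0_cases h.sw.a with h3 | h3 | h3 | h3 <;> simp [h3]
    rcases hcase with h3 | h3
    · exact ⟨u, φ, j, h, hj, h3⟩
    · obtain ⟨e1, -⟩ := h.eqs ι hι hj
      have ha := h.sw.a
      have ea : φ wa = (φ wa * wb) * wb := by rw [mul_assoc, show wb * wb = 1 by decide +kernel, mul_one]
      have eb : φ wb = (φ wa * wb) * wa := by rw [e1, mul_assoc, show wa * wa = 1 by decide +kernel, mul_one]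
      have e : wa * wb * φ (wa * wb) = 1 := by
        have h4 : wb * (φ wa * wb) = (φ wa * wb) * wb := (Z0_comm_J0 ha jb).symm
        calc wa * wb * φ (wa * wb) = wa * wb * (((φ wa * wb) * wb) * ((φ wa * wb) * wa)) := by
              rw [map_mul, ← ea, ← eb]
          _ = wa * wb * ((φ wa * wb) * (wb * (φ wa * wb)) * wa) := by group
          _ = wa * wb * (((φ wa * wb) * (φ wa * wb)) * wb * wa) := by rw [h4]; group
          _ = wa * wb * (wb * wa) := by rw [Z0_sq ha, one_mul]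
          _ = 1 := by decide +kernel
      have e' : wa * wb * φ (wa * wb) * j = j := by rw [e, one_mul]
      refine ⟨_, _, _, h.mul (mul_mem ja jb) (by rw [e']; exact h.jJ), by rw [e']; exact hj, ?_⟩
      change (wa * wb * φ wa * (wa * wb)⁻¹) * wb = 1 ∨ (wa * wb * φ wa * (wa * wb)⁻¹) * wb = wz2
      have h5 : (wa * wb * φ wa * (wa * wb)⁻¹) * wb = (φ wa * wb) * wz1 := by
        have h6 : wa * wb * (φ wa * wb) = (φ wa * wb) * (wa * wb) := (Z0_comm_J0 ha (mul_mem ja jb)).symm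
        calc (wa * wb * φ wa * (wa * wb)⁻¹) * wb = (wa * wb * (φ wa * wb)) * wb * (wa * wb)⁻¹ * wb := by
              conv_lhs => rw [ea]
              group
          _ = (φ wa * wb) * ((wa * wb) * wb * (wa * wb)⁻¹ * wb) := by rw [h6]; group
          _ = (φ wa * wb) * wz1 := by
              rw [show (wa * wb) * wb * (wa * wb)⁻¹ * wb = wz1 by decide +kernel]
      rw [h5]
      rcases h3 with h3 | h3 <;> rw [h3]
      · left; decide +kernel
      · right; decide +kernel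
  obtain ⟨u, φ, j, h, hj, h3⟩ := stepA
  have hcase : (φ wc * wd = 1 ∨ φ wc * wd = wz1) ∨ (φ wc * wd = wz2 ∨ φ wc * wd = wz1 * wz2) := by
    rcases Z0_cases h.sw.c with h4 | h4 | h4 | h4 <;> simp [h4]
  rcases hcase with h4 | h4
  · exact ⟨u, φ, j, h, hj, h3, h4⟩
  · obtain ⟨-, e1⟩ := h.eqs ι hι hj
    have hc := h.sw.c
    have ec : φ wc = (φ wc * wd) * wd := by rw [mul_assoc, show wd * wd = 1 by decide +kernel, mul_one]
    have ed : φ wd = (φ wc * wd) * wc := by rw [e1, mul_assoc, show wc * wc = 1 by decide +kernel, mul_one]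
    have e : wc * wd * φ (wc * wd) = 1 := by
      have h5 : wd * (φ wc * wd) = (φ wc * wd) * wd := (Z0_comm_J0 hc jd).symm
      calc wc * wd * φ (wc * wd) = wc * wd * (((φ wc * wd) * wd) * ((φ wc * wd) * wc)) := by
            rw [map_mul, ← ec, ← ed]
        _ = wc * wd * ((φ wc * wd) * (wd * (φ wc * wd)) * wc) := by group
        _ = wc * wd * (((φ wc * wd) * (φ wc * wd)) * wd * wc) := by rw [h5]; group
        _ = wc * wd * (wd * wc) := by rw [Z0_sq hc, one_mul]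
        _ = 1 := by decide +kernel
    have e' : wc * wd * φ (wc * wd) * j = j := by rw [e, one_mul]
    refine ⟨_, _, _, h.mul (mul_mem jc jd) (by rw [e']; exact h.jJ), by rw [e']; exact hj, ?_, ?_⟩
    · change (wc * wd * φ wa * (wc * wd)⁻¹) * wb = 1 ∨ (wc * wd * φ wa * (wc * wd)⁻¹) * wb = wz2
      have h5 : (wc * wd * φ wa * (wc * wd)⁻¹) * wb = φ wa * wb := by
        have ea : φ wa = (φ wa * wb) * wb := by
          rw [mul_assoc, show wb * wb = 1 by decide +kernel, mul_one]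
        have h6 : wc * wd * (φ wa * wb) = (φ wa * wb) * (wc * wd) :=
          (Z0_comm_J0 h.sw.a (mul_mem jc jd)).symm
        calc (wc * wd * φ wa * (wc * wd)⁻¹) * wb = (wc * wd * (φ wa * wb)) * wb * (wc * wd)⁻¹ * wb := by
              conv_lhs => rw [ea]
              group
          _ = (φ wa * wb) * ((wc * wd) * wb * (wc * wd)⁻¹ * wb) := by rw [h6]; group
          _ = φ wa * wb := by
              rw [show (wc * wd) * wb * (wc * wd)⁻¹ * wb = 1 by decide +kernel, mul_one]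
      rw [h5]
      exact h3
    · change (wc * wd * φ wc * (wc * wd)⁻¹) * wd = 1 ∨ (wc * wd * φ wc * (wc * wd)⁻¹) * wd = wz1
      have h5 : (wc * wd * φ wc * (wc * wd)⁻¹) * wd = (φ wc * wd) * wz2 := by
        have h6 : wc * wd * (φ wc * wd) = (φ wc * wd) * (wc * wd) :=
          (Z0_comm_J0 hc (mul_mem jc jd)).symm
        calc (wc * wd * φ wc * (wc * wd)⁻¹) * wd = (wc * wd * (φ wc * wd)) * wd * (wc * wd)⁻¹ * wd := by
              conv_lhs => rw [ec]
              group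
          _ = (φ wc * wd) * ((wc * wd) * wd * (wc * wd)⁻¹ * wd) := by rw [h6]; group
          _ = (φ wc * wd) * wz2 := by
              rw [show (wc * wd) * wd * (wc * wd)⁻¹ * wd = wz2 by decide +kernel]
      rw [h5]
      rcases h4 with h4 | h4 <;> rw [h4]
      · left; decide +kernel
      · right; decide +kernel

end

end Cfsg.Agent.H584.WrRank
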