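import Mathlib
import Cfsg.Agent.H584.WrAuto
import Cfsg.Agent.H584.Sect

/-!
# `D₈ ≀ C₂` in 2-groups of sectional rank at most 4

`ι : W →* S` injective, `S` a 2-group of sectional rank at most 4.

* `no_fifth`: an element centralizing `J0` modulo `Z0`, with square in `Z0`, is in `J0`.
* `cent_A`, `cent_B`: `C_S(A0) = A0`, `C_S(B0) = B0`.
* `norm_A`, `norm_B`: `N_S(A0) = N_S(B0) = W`.
-/

set_option autoImplicit false

namespace Cfsg.Agent.H584.WrRank

open Subgroup Cfsg Cfsg.Agent.TwoFusion.SectionalRank Cfsg.Agent.H584.WrModel Cfsg.Agent.H584.WrModel.W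

/-- In a 2-group, for `A < C`, both normalized by `M ≥ C`: there is `y ∈ C - A` with `y² ∈ A`, `[y, M] ≤ A`. -/
theorem exists_central_step {S : Type*} [Group S] [Finite S] (h2 : IsPGroup 2 S) {A C M : Subgroup S}
    (hne : ¬ C ≤ A) (hCM : C ≤ M) (hA : ∀ m ∈ M, ∀ a ∈ A, m * a * m⁻¹ ∈ A)
    (hC : ∀ m ∈ M, ∀ a ∈ C, m * a * m⁻¹ ∈ C) :
    ∃ y ∈ C, y ∉ A ∧ y * y ∈ A ∧ ∀ m ∈ M, y * m * y⁻¹ * m⁻¹ ∈ A := by
  have : Fact (Nat.Prime 2) := ⟨Nat.prime_two⟩
  have hAn : (A.subgroupOf M).Normal := by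
    constructor
    intro n hn g
    rw [mem_subgroupOf] at hn ⊢
    exact hA g g.2 n hn
  set π := QuotientGroup.mk' (A.subgroupOf M) with hπ
  have hCn : ((C.subgroupOf M).map π).Normal := by
    have h3 : (C.subgroupOf M).Normal := by
      constructor
      intro n hn g
      rw [mem_subgroupOf] at hn ⊢
      exact hC g g.2 n hn
    exact h3.map π (QuotientGroup.mk'_surjective _)
  have hCne : (C.subgroupOf M).map π ≠ ⊥ := by
    intro h
    apply hne
    intro c hc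
    have h3 : π ⟨c, hCM hc⟩ ∈ (C.subgroupOf M).map π := mem_map_of_mem π (show (⟨c, hCM hc⟩ : M) ∈ C.subgroupOf M from hc)
    rw [h, mem_bot, hπ, QuotientGroup.mk'_apply, QuotientGroup.eq_one_iff] at h3
    exact h3
  have hpQ : IsPGroup 2 (M ⧸ A.subgroupOf M) := (h2.to_subgroup M).to_quotient _
  obtain ⟨q, hq, hqc, hq1⟩ := Cfsg.Agent.Transfer.TausskyTwoGroup.exists_ne_one_mem_inf_center
    (p := 2) hpQ _ hCne
  obtain ⟨x, hx, rfl⟩ := hq
  have hxA : (x : S) ∉ A := by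
    intro h
    apply hq1
    rw [hπ, QuotientGroup.mk'_apply, QuotientGroup.eq_one_iff]
    exact h
  have hxcomm : ∀ m : M, π (x * m) = π (m * x) := by
    intro m
    rw [map_mul, map_mul]
    exact (mem_center_iff.1 hqc (π m)).symm
  obtain ⟨j, hj1, hj2⟩ := Sect.exists_sq_mem h2 A x hxA
  refine ⟨(x : S) ^ (2 ^ j), pow_mem hx _, hj1, by rwa [pow_two] at hj2, ?_⟩
  intro m hm
  have h3 : Commute (π x) (π ⟨m, hm⟩) := by
    have := hxcomm ⟨m, hm⟩
    rw [map_mul, map_mul] at this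
    exact this
  have h4 := (h3.pow_left (2 ^ j)).eq
  rw [← map_pow, ← map_mul, ← map_mul] at h4
  have h5 : π (x ^ 2 ^ j * ⟨m, hm⟩ * (⟨m, hm⟩ * x ^ 2 ^ j)⁻¹) = 1 := by
    rw [map_mul, map_inv, h4, mul_inv_cancel]
  rw [hπ, QuotientGroup.mk'_apply, QuotientGroup.eq_one_iff, mem_subgroupOf] at h5
  have h6 : (x : S) ^ 2 ^ j * m * ((x : S) ^ 2 ^ j)⁻¹ * m⁻¹ =
      ((x ^ 2 ^ j * ⟨m, hm⟩ * (⟨m, hm⟩ * x ^ 2 ^ j)⁻¹ : M) : S) := by
    push_cast
    group
  rw [h6]
  exact h5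

/-- Normalizers grow inside `M`. -/
theorem exists_normalizing {S : Type*} [Group S] [Finite S] (h2 : IsPGroup 2 S) {P M : Subgroup S}
    (hPM : P ≤ M) (hne : ¬ M ≤ P) : ∃ x ∈ M, x ∉ P ∧ (∀ p ∈ P, x * p * x⁻¹ ∈ P) ∧ ∀ p ∈ P, x⁻¹ * p * x ∈ P := by
  have : Fact (Nat.Prime 2) := ⟨Nat.prime_two⟩
  have hnil : Group.IsNilpotent M := (h2.to_subgroup M).isNilpotent
  have hlt : P.subgroupOf M < ⊤ := by
    rw [lt_top_iff_ne_top]
    intro h
    rw [subgroupOf_eq_top] at h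
    exact hne h
  have h3 := Group.normalizerCondition_of_isNilpotent (P.subgroupOf M) hlt
  obtain ⟨x, hx1, hx2⟩ := SetLike.exists_of_lt h3
  refine ⟨x, x.2, hx2, ?_, ?_⟩
  · intro p hp
    have := (mem_normalizer_iff.1 hx1 ⟨p, hPM hp⟩).1 hp
    exact this
  · intro p hp
    have := (mem_normalizer_iff.1 (inv_mem hx1) ⟨p, hPM hp⟩).1 hp
    rw [inv_inv] at this
    exact this

section

variable {S : Type*} [Group S] [Finite S] (h2 : IsPGroup 2 S) (hr : SectionalPRankLE 2 4 S)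
  (ι : W →* S) (hι : Function.Injective ι)

theorem Z0_cases {w : W} (h : w ∈ Z0) : w = 1 ∨ w = wz1 ∨ w = wz2 ∨ w = wz1 * wz2 := by
  rw [mem_Z0, inZ_iff] at h
  have key : ∀ w ∈ listZ, w = 1 ∨ w = wz1 ∨ w = wz2 ∨ w = wz1 * wz2 := by decide +kernel
  exact key w h

theorem J0_le : J0 ≤ closure ({wa, wb, wc, wd} : Set W) := by
  intro w hw
  rw [mem_J0, inJ_iff] at hw
  obtain ⟨p, q, s⟩ := w
  change s = false at hw
  subst hw
  have e : (⟨p, q, false⟩ : W) = ⟨p, 1, false⟩ * ⟨1, q, false⟩ := by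
    rw [W.mul_def]; simp
  rw [e]
  have k1 : ∀ p : D, ∃ i : Fin 2, ∃ j : Fin 4, (⟨p, 1, false⟩ : W) = wa ^ (i : ℕ) * (wa * wb) ^ (j : ℕ) := by
    decide +kernel
  have k2 : ∀ p : D, ∃ i : Fin 2, ∃ j : Fin 4, (⟨1, p, false⟩ : W) = wc ^ (i : ℕ) * (wc * wd) ^ (j : ℕ) := by
    decide +kernel
  have ha : wa ∈ closure ({wa, wb, wc, wd} : Set W) := subset_closure (by simp)
  have hb : wb ∈ closure ({wa, wb, wc, wd} : Set W) := subset_closure (by simp)
  have hc : wc ∈ closure ({wa, wb, wc, wd} : Set W) := subset_closure (by simp)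
  have hd : wd ∈ closure ({wa, wb, wc, wd} : Set W) := subset_closure (by simp)
  obtain ⟨i, j, h1⟩ := k1 p
  obtain ⟨k, l, h3⟩ := k2 q
  rw [h1, h3]
  exact mul_mem (mul_mem (pow_mem ha _) (pow_mem (mul_mem ha hb) _))
    (mul_mem (pow_mem hc _) (pow_mem (mul_mem hc hd) _))

include h2 hr hι

omit h2 in
/-- No fifth dimension. -/
theorem no_fifth (y : S) (ha : y * ι wa * y⁻¹ * (ι wa)⁻¹ ∈ Z0.map ι) (hb : y * ι wb * y⁻¹ * (ι wb)⁻¹ ∈ Z0.map ι)
    (hc : y * ι wc * y⁻¹ * (ι wc)⁻¹ ∈ Z0.map ι) (hd : y * ι wd * y⁻¹ * (ι wd)⁻¹ ∈ Z0.map ι)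
    (hz1 : y * ι wz1 = ι wz1 * y) (hz2 : y * ι wz2 = ι wz2 * y) (hyy : y * y ∈ Z0.map ι) : y ∈ J0.map ι := by
  by_contra hyJ
  set N := Z0.map ι with hN
  set T : Set S := insert y (ι '' {wa, wb, wc, wd}) with hT
  -- `y` and the generators commute with `N`
  have hyN : ∀ n ∈ N, y * n = n * y := by
    rintro _ ⟨w, hw, rfl⟩
    rcases Z0_cases hw with rfl | rfl | rfl | rfl
    · rw [map_one, one_mul, mul_one]
    · exact hz1
    · exact hz2
    · rw [map_mul, ← mul_assoc, hz1, mul_assoc, hz2, mul_assoc]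
  have hgN : ∀ g ∈ ({wa, wb, wc, wd} : Set W), ∀ n ∈ N, ι g * n = n * ι g := by
    rintro g hg _ ⟨w, hw, rfl⟩
    rw [← map_mul, ← map_mul]
    congr 1
    rw [SetLike.mem_coe, mem_Z0, inZ_iff] at hw
    simp only [Set.mem_insert_iff, Set.mem_singleton_iff] at hg
    have key : ∀ w ∈ listZ, wa * w = w * wa ∧ wb * w = w * wb ∧ wc * w = w * wc ∧ wd * w = w * wd := by
      decide +kernel
    obtain ⟨k1, k2, k3, k4⟩ := key w hw
    rcases hg with rfl | rfl | rfl | rfl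
    · exact k1
    · exact k2
    · exact k3
    · exact k4
  have hnorm : ∀ g : S, (∀ n ∈ N, g * n = n * g) → g ∈ normalizer (N : Set S) := by
    intro g hg
    apply centralizer_le_normalizer
    rw [mem_centralizer_iff]
    intro n hn
    exact (hg n hn).symm
  have hyc : ∀ g ∈ ({wa, wb, wc, wd} : Set W), y * ι g * y⁻¹ * (ι g)⁻¹ ∈ N := by
    intro g hg
    simp only [Set.mem_insert_iff, Set.mem_singleton_iff] at hg
    rcases hg with rfl | rfl | rfl | rfl
    · exact ha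
    · exact hb
    · exact hc
    · exact hd
  have hgg : ∀ g ∈ ({wa, wb, wc, wd} : Set W), ∀ g' ∈ ({wa, wb, wc, wd} : Set W), g * g' * g⁻¹ * g'⁻¹ ∈ Z0 := by
    have key : ∀ g ∈ [wa, wb, wc, wd], ∀ g' ∈ [wa, wb, wc, wd], g * g' * g⁻¹ * g'⁻¹ ∈ listZ := by decide +kernel
    intro g hg g' hg'
    rw [mem_Z0, inZ_iff]
    exact key g (by simpa using hg) g' (by simpa using hg')
  have hg2 : ∀ g ∈ ({wa, wb, wc, wd} : Set W), g * g = 1 := by
    have key : ∀ g ∈ [wa, wb, wc, wd], g * g = 1 := by decide +kernel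
    intro g hg
    exact key g (by simpa using hg)
  have hsec := Sect.elemSection_closure N T ?_ ?_ ?_
  · have hle : J0.map ι ≤ closure (T ∪ (N : Set S)) := by
      rintro _ ⟨w, hw, rfl⟩
      have h3 := J0_le hw
      have h4 : ι w ∈ (closure ({wa, wb, wc, wd} : Set W)).map ι := mem_map_of_mem ι h3
      rw [MonoidHom.map_closure] at h4
      refine closure_mono ?_ h4
      exact (Set.subset_insert _ _).trans Set.subset_union_left
    have hlt : J0.map ι < closure (T ∪ (N : Set S)) := by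
      refine lt_of_le_of_ne hle ?_
      intro h
      apply hyJ
      rw [h]
      exact subset_closure (Or.inl (Set.mem_insert _ _))
    have h5 := Sect.two_mul_card_le hlt
    have h6 := sectionalPRankLE_iff.1 hr _ _ hsec
    have hcN : Nat.card N = 4 := by rw [hN, card_map_of_injective hι, card_Z0]
    rw [hcN] at h6
    rw [card_map_of_injective hι, card_J0] at h5
    omega
  · rintro a (rfl | ⟨g, hg, rfl⟩)
    · exact hnorm _ hyN
    · exact hnorm _ (hgN g hg)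
  · rintro a (rfl | ⟨g, hg, rfl⟩) b (rfl | ⟨g', hg', rfl⟩)
    · have : b * b * b⁻¹ * b⁻¹ = 1 := by group
      rw [this]
      exact one_mem _
    · exact hyc g' hg'
    · have h3 := inv_mem (hyc g hg)
      have h4 : (b * ι g * b⁻¹ * (ι g)⁻¹)⁻¹ = ι g * b * (ι g)⁻¹ * b⁻¹ := by group
      rwa [h4] at h3
    · rw [← map_inv, ← map_inv, ← map_mul, ← map_mul, ← map_mul]
      exact mem_map_of_mem ι (hgg g hg g' hg')
  · rintro a (rfl | ⟨g, hg, rfl⟩)
    · exact hyy
    · rw [← map_mul, hg2 g hg, map_one]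
      exact one_mem _

/-- `C_S(A0) = A0` -/
theorem cent_A (y : S) (hy : ∀ w ∈ A0, y * ι w = ι w * y) : y ∈ A0.map ι := by
  by_contra hyA
  have hstep := exists_central_step h2 (A := A0.map ι)
    (C := centralizer ((A0.map ι : Subgroup S) : Set S)) (M := normalizer ((A0.map ι : Subgroup S) : Set S))
    (by
      intro h
      apply hyA
      apply h
      rw [mem_centralizer_iff]
      rintro _ ⟨w, hw, rfl⟩
      exact (hy w hw).symm) (centralizer_le_normalizer _) (by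
      intro m hm a ha
      exact (mem_normalizer_iff.1 hm a).1 ha) (by
      intro m hm a ha
      rw [mem_centralizer_iff] at ha ⊢
      intro h hh
      have h3 := (mem_normalizer_iff.1 (inv_mem hm) h).1 hh
      rw [inv_inv] at h3
      have h4 := ha _ h3
      calc h * (m * a * m⁻¹) = m * (m⁻¹ * h * m * a) * m⁻¹ := by group
        _ = m * (a * (m⁻¹ * h * m)) * m⁻¹ := by rw [h4]
        _ = m * a * m⁻¹ * h := by group)
  obtain ⟨x, hxC, hxA, hxx, hxM⟩ := hstep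
  · have hxa : ∀ w ∈ A0, x * ι w = ι w * x := by
      intro w hw
      exact ((mem_centralizer_iff.1 hxC) (ι w) (mem_map_of_mem ι hw)).symm
    have hWM : ∀ g : W, ι g ∈ normalizer ((A0.map ι : Subgroup S) : Set S) := by
      intro g
      rw [mem_normalizer_iff]
      intro h
      constructor
      · rintro ⟨v, hv, rfl⟩
        exact ⟨g * v * g⁻¹, mem_A0.2 (A0_conj g (mem_A0.1 hv)), by rw [map_mul, map_mul, map_inv]⟩
      · rintro ⟨v, hv, hvh⟩
        refine ⟨g⁻¹ * v * g, ?_, ?_⟩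
        · have := mem_A0.2 (A0_conj g⁻¹ (mem_A0.1 hv))
          rwa [inv_inv] at this
        · rw [map_mul, map_mul, hvh, map_inv]
          group
    obtain ⟨u, hu, hub⟩ := hxM (ι wb) (hWM wb)
    obtain ⟨w, hw, hwd⟩ := hxM (ι wd) (hWM wd)
    obtain ⟨v, hv, hvx⟩ := hxx
    have hub' : x * ι wb * x⁻¹ = ι (u * wb) := by
      rw [map_mul, hub]; group
    have hwd' : x * ι wd * x⁻¹ = ι (w * wd) := by
      rw [map_mul, hwd]; group
    have r1 : (u * wb) * (u * wb) = 1 := by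
      apply hι
      rw [map_mul, ← hub', map_one]
      have h3 : ι wb * ι wb = 1 := by
        rw [← map_mul, show wb * wb = 1 by decide, map_one]
      calc x * ι wb * x⁻¹ * (x * ι wb * x⁻¹) = x * (ι wb * ι wb) * x⁻¹ := by group
        _ = 1 := by rw [h3]; group
    have r2 : (w * wd) * (w * wd) = 1 := by
      apply hι
      rw [map_mul, ← hwd', map_one]
      have h3 : ι wd * ι wd = 1 := by
        rw [← map_mul, show wd * wd = 1 by decide, map_one]
      calc x * ι wd * x⁻¹ * (x * ι wd * x⁻¹) = x * (ι wd * ι wd) * x⁻¹ := by group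
        _ = 1 := by rw [h3]; group
    have r3 : (u * wb) * (w * wd) = (w * wd) * (u * wb) := by
      apply hι
      rw [map_mul ι (u * wb), map_mul ι (w * wd), ← hwd', ← hub']
      have h3 : ι wb * ι wd = ι wd * ι wb := by
        rw [← map_mul, ← map_mul, show wb * wd = wd * wb by decide]
      calc x * ι wb * x⁻¹ * (x * ι wd * x⁻¹) = x * (ι wb * ι wd) * x⁻¹ := by group
        _ = x * (ι wd * ι wb) * x⁻¹ := by rw [h3]
        _ = x * ι wd * x⁻¹ * (x * ι wb * x⁻¹) := by group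
    rw [SetLike.mem_coe, mem_A0, inA_iff] at hu hw
    have key : ∀ u ∈ listA, (u * wb) * (u * wb) = 1 → ∀ w ∈ listA, (w * wd) * (w * wd) = 1 →
        (u * wb) * (w * wd) = (w * wd) * (u * wb) → u ∈ listZ ∧ w ∈ listZ := by decide +kernel
    obtain ⟨huZ, hwZ⟩ := key u hu r1 w hw r2 r3
    rw [← inZ_iff, ← mem_Z0] at huZ hwZ
    -- the square of `x`
    have hxz : ∀ ζ ∈ Z0, x * ι ζ = ι ζ * x := fun ζ hζ => hxa ζ hζ.1
    have hZsq : ∀ ζ ∈ Z0, ι ζ * ι ζ = 1 := by
      intro ζ hζ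
      rw [← map_mul, A0_sq (mem_A0.1 hζ.1), map_one]
    have hsq : ∀ (g ζ : W), ζ ∈ Z0 → x * ι g * x⁻¹ = ι (ζ * g) → v * g = g * v := by
      intro g ζ hζ hg
      apply hι
      rw [map_mul, map_mul, hvx]
      have h3 : x * (x * ι g * x⁻¹) * x⁻¹ = ι g := by
        rw [hg, map_mul]
        calc x * (ι ζ * ι g) * x⁻¹ = (x * ι ζ) * ι g * x⁻¹ := by group
          _ = (ι ζ * x) * ι g * x⁻¹ := by rw [hxz ζ hζ]
          _ = ι ζ * (x * ι g * x⁻¹) := by group
          _ = (ι ζ * ι ζ) * ι g := by rw [hg, map_mul]; group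
          _ = ι g := by rw [hZsq ζ hζ, one_mul]
      calc x * x * ι g = (x * (x * ι g * x⁻¹) * x⁻¹) * (x * x) := by group
        _ = ι g * (x * x) := by rw [h3]
    have hvb := hsq wb u huZ hub'
    have hvd := hsq wd w hwZ hwd'
    have hvZ : v ∈ Z0 := by
      rw [mem_Z0]
      exact ⟨mem_A0.1 hv, hvb, hvd⟩
    have hone : ∀ w ∈ A0, x * ι w * x⁻¹ * (ι w)⁻¹ ∈ Z0.map ι := by
      intro w hw
      rw [hxa w hw]
      have : ι w * x * x⁻¹ * (ι w)⁻¹ = 1 := by group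
      rw [this]
      exact one_mem _
    have hJ := no_fifth hr ι hι x (hone wa (by rw [mem_A0]; decide +kernel)) ⟨u, huZ, hub⟩
      (hone wc (by rw [mem_A0]; decide +kernel)) ⟨w, hwZ, hwd⟩ (hxa wz1 (by rw [mem_A0]; decide +kernel))
      (hxa wz2 (by rw [mem_A0]; decide +kernel)) ⟨v, hvZ, hvx⟩
    obtain ⟨j, -, rfl⟩ := hJ
    apply hxA
    refine ⟨j, ?_, rfl⟩
    rw [SetLike.mem_coe, mem_A0]
    constructor
    · apply hι
      rw [map_mul, map_mul]
      exact hxa wa (by rw [mem_A0]; decide +kernel)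
    · apply hι
      rw [map_mul, map_mul]
      exact hxa wc (by rw [mem_A0]; decide +kernel)

end

end Cfsg.Agent.H584.WrRank
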